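import Mathlib

/-!
# Groups with no nontrivial real element of odd order
-/

set_option autoImplicit false

namespace Cfsg.Agent.Lib.RealCl

universe u

/-- No nontrivial real element of odd order. -/
def NR (G : Type u) [Group G] : Prop :=
  ∀ x : G, Odd (orderOf x) → IsConj x x⁻¹ → x = 1

section parity

/-- An endofunction of a finite set of odd size, some `2`-power iterate of which is the identity,
has a fixed point. -/
theorem exists_fixed_of_odd {α : Type*} [Finite α] (hα : Odd (Nat.card α)) (f : α → α) (n : ℕ)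
    (hf : ∀ a, f^[2 ^ n] a = a) : ∃ a, f a = a := by
  classical
  haveI : Fintype α := Fintype.ofFinite α
  haveI : Fact (Nat.Prime 2) := ⟨Nat.prime_two⟩
  let f' : Function.End α := f
  have h1 : f' ^ 2 ^ n = 1 := by
    funext a
    have h0 := hom_coe_pow (fun g : Function.End α ↦ g) rfl (fun g h ↦ rfl) f' (2 ^ n)
    have h00 := congrFun h0 a
    exact h00.trans (hf a)
  have h2 := Equiv.Perm.card_fixedPoints_modEq (p := 2) (n := n) h1
  rw [Nat.card_eq_fintype_card] at hα
  by_contra hno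
  push Not at hno
  have h3 : Fintype.card (Function.fixedPoints f') = 0 := by
    rw [Fintype.card_eq_zero_iff]
    exact ⟨fun a => hno a.1 a.2⟩
  rw [h3] at h2
  have h4 : Fintype.card α % 2 = 0 := by simpa [Nat.ModEq] using h2
  obtain ⟨k, hk⟩ := hα
  omega

/-- Iterating `w ↦ y w⁻¹ y⁻¹` an even number of times is conjugation by a power of `y`. -/
theorem iterate_twist {G : Type*} [Group G] (y : G) (j : ℕ) (w : G) :
    ((fun w => y * w⁻¹ * y⁻¹)^[2 * j]) w = y ^ (2 * j) * w * (y ^ (2 * j))⁻¹ := by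
  induction j with
  | zero => simp
  | succ j ih =>
    have e : 2 * (j + 1) = 2 + 2 * j := by ring
    rw [e, Function.iterate_add_apply, ih]
    simp only [Function.iterate_succ_apply, Function.iterate_zero_apply, id]
    rw [pow_add]
    group

/-- A `2`-power exponent element gives a `2`-power iterate identity for the twist. -/
theorem twist_iter_id {G : Type*} [Group G] (y : G) (k : ℕ) (hy : y ^ 2 ^ k = 1) (w : G) :
    ((fun w => y * w⁻¹ * y⁻¹)^[2 ^ (k + 1)]) w = w := by
  have e : 2 ^ (k + 1) = 2 * 2 ^ k := by ring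
  rw [e, iterate_twist, ← e, pow_succ, pow_mul, hy]
  simp

/-- Odd powers of an inverter of `x` invert `x`. -/
theorem pow_odd_inverts {G : Type*} [Group G] {c x : G} (h : c * x * c⁻¹ = x⁻¹) {m : ℕ}
    (hm : Odd m) : c ^ m * x * (c ^ m)⁻¹ = x⁻¹ := by
  have h2 : Commute (c ^ 2) x := by
    have h3 : c * x⁻¹ * c⁻¹ = x := by
      have := congrArg (fun z => z⁻¹) h
      simpa [mul_assoc] using this
    show c ^ 2 * x = x * c ^ 2
    have h4 : c ^ 2 * x * (c ^ 2)⁻¹ = x := by
      rw [pow_two]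
      calc c * c * x * (c * c)⁻¹ = c * (c * x * c⁻¹) * c⁻¹ := by group
        _ = x := by rw [h, h3]
    calc c ^ 2 * x = c ^ 2 * x * (c ^ 2)⁻¹ * c ^ 2 := by group
      _ = x * c ^ 2 := by rw [h4]
  obtain ⟨t, rfl⟩ := hm
  have e : c ^ (2 * t + 1) = (c ^ 2) ^ t * c := by rw [pow_succ, pow_mul]
  rw [e]
  have h5 : Commute ((c ^ 2) ^ t) x := h2.pow_left t
  have h6 : Commute ((c ^ 2) ^ t) x⁻¹ := h5.inv_right
  calc (c ^ 2) ^ t * c * x * ((c ^ 2) ^ t * c)⁻¹
      = (c ^ 2) ^ t * (c * x * c⁻¹) * ((c ^ 2) ^ t)⁻¹ := by group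
    _ = x⁻¹ := by rw [h, h6.eq]; group

/-- Powers of a real element are real, with the same inverter. -/
theorem pow_inverted {G : Type*} [Group G] {c x : G} (h : c * x * c⁻¹ = x⁻¹) (k : ℕ) :
    c * x ^ k * c⁻¹ = (x ^ k)⁻¹ := by
  have := map_pow (MulAut.conj c) x k
  simp only [MulAut.conj_apply] at this
  rw [this, h, inv_pow]

theorem isConj_inv_of {G : Type*} [Group G] {c x : G} (h : c * x * c⁻¹ = x⁻¹) : IsConj x x⁻¹ :=
  isConj_iff.mpr ⟨c, h⟩

/-- The odd part of an element: a `2`-power power of `x` with odd order. -/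
theorem exists_two_pow_odd {G : Type*} [Group G] [Finite G] (x : G) :
    ∃ s : ℕ, Odd (orderOf (x ^ 2 ^ s)) := by
  obtain ⟨s, m, hm, h⟩ := Nat.exists_eq_two_pow_mul_odd (orderOf_pos x).ne'
  refine ⟨s, ?_⟩
  have : orderOf (x ^ 2 ^ s) ∣ m := by
    apply orderOf_dvd_of_pow_eq_one
    rw [← pow_mul, ← h, pow_orderOf_eq_one]
  exact hm.of_dvd_nat this

/-- An element `x` and a `2`-power `s`: the complementary odd power has `2`-power order. -/
theorem exists_odd_pow_two {G : Type*} [Group G] [Finite G] (x : G) :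
    ∃ (k m : ℕ), Odd m ∧ (x ^ m) ^ 2 ^ k = 1 := by
  obtain ⟨s, m, hm, h⟩ := Nat.exists_eq_two_pow_mul_odd (orderOf_pos x).ne'
  refine ⟨s, m, hm, ?_⟩
  rw [← pow_mul, mul_comm, ← h, pow_orderOf_eq_one]

/-- If `x ^ 2 ^ s = 1` and `x` has odd order, then `x = 1`. -/
theorem eq_one_of_two_pow {G : Type*} [Group G] {x : G} (hx : Odd (orderOf x)) (s : ℕ)
    (h : x ^ 2 ^ s = 1) : x = 1 := by
  have h1 : orderOf x ∣ 2 ^ s := orderOf_dvd_of_pow_eq_one h
  have h2 : Nat.Coprime (orderOf x) (2 ^ s) :=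
    Nat.Coprime.pow_right _ (Nat.coprime_two_right.mpr hx)
  have h3 : orderOf x = 1 := Nat.Coprime.eq_one_of_dvd h2 h1
  exact orderOf_eq_one_iff.mp h3

end parity

section basic

variable {G : Type u} [Group G]

/-- `NR` passes to subgroups. -/
theorem NR.subgroup (h : NR G) (K : Subgroup G) : NR K := by
  intro x hx hc
  have h1 : orderOf (x : G) = orderOf x := Subgroup.orderOf_coe x
  have h2 : IsConj (x : G) (x : G)⁻¹ := by
    obtain ⟨c, hc⟩ := isConj_iff.mp hc
    refine isConj_iff.mpr ⟨c, ?_⟩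
    simpa using congrArg Subtype.val hc
  have := h (x : G) (h1 ▸ hx) h2
  exact Subtype.ext this

/-- Class size equals the index of the centralizer. -/
theorem card_class_eq_index (x : G) [Finite G] :
    Nat.card {y : G // IsConj x y} = (Subgroup.centralizer ({x} : Set G)).index := by
  classical
  have h1 : (Subgroup.centralizer ({x} : Set G)).index
      = (MulAction.stabilizer (ConjAct G) x).index := by
    rw [Subgroup.centralizer_eq_comap_stabilizer]
    have e := Subgroup.index_comap_of_surjective (MulAction.stabilizer (ConjAct G) x)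
      (f := ConjAct.toConjAct.toMonoidHom) (ConjAct.toConjAct.surjective)
    exact e
  rw [h1, MulAction.index_stabilizer]
  have h2 : MulAction.orbit (ConjAct G) x = {y : G | IsConj x y} := by
    ext y
    rw [ConjAct.mem_orbit_conjAct]
    exact isConj_comm
  rw [h2, ← Nat.card_coe_set_eq]
  rfl

/-- A real element with odd class size squares to the identity. -/
theorem sq_eq_one_of_real_odd_class [Finite G] {x : G} (hr : IsConj x x⁻¹)
    (hodd : Odd (Subgroup.centralizer ({x} : Set G)).index) : x ^ 2 = 1 := by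
  have h1 : Odd (Nat.card {y : G // IsConj x y}) := by rwa [card_class_eq_index]
  let f : {y : G // IsConj x y} → {y : G // IsConj x y} := fun y =>
    ⟨y.1⁻¹, hr.trans ((isConj_iff.mp y.2).elim fun c hc => isConj_iff.mpr ⟨c, by rw [← hc]; group⟩)⟩
  obtain ⟨w, hw⟩ := exists_fixed_of_odd h1 f 1 (by
    intro a
    apply Subtype.ext
    simp [f])
  have hw' : w.1⁻¹ = w.1 := congrArg Subtype.val hw
  have h2 : w.1 ^ 2 = 1 := by
    rw [pow_two]
    nth_rw 1 [← hw']
    simp
  obtain ⟨c, hc⟩ := isConj_iff.mp w.2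
  have h3 := congrArg (fun z => c⁻¹ * z * c) h2
  simp only [← hc, mul_one] at h3
  calc x ^ 2 = c⁻¹ * (c * x * c⁻¹) ^ 2 * c := by
        rw [pow_two, pow_two]; group
    _ = 1 := by simpa using h3

end basic

end Cfsg.Agent.Lib.RealCl
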