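import Mathlib
import Cfsg.Agent.Lib.RealCl.Basic
import Cfsg.Agent.Lib.Coprime.SZ

set_option autoImplicit false

namespace Cfsg.Agent.Lib.RealCl

universe u

variable {G : Type u} [Group G] [Finite G]

/-- Odd normal subgroups: `NR` passes to the quotient. -/
theorem NR.quotient_odd (h : NR G) (N : Subgroup G) [N.Normal] (hN : Odd (Nat.card N)) :
    NR (G ⧸ N) := by
  intro xb hx hr
  obtain ⟨cb, hcb⟩ := isConj_iff.mp hr
  obtain ⟨c, rfl⟩ := QuotientGroup.mk_surjective cb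
  obtain ⟨k, m, hm, hy⟩ := exists_odd_pow_two c
  set y := c ^ m with hydef
  have hyb : ((y : G) : G ⧸ N) * xb * ((y : G) : G ⧸ N)⁻¹ = xb⁻¹ := by
    have := pow_odd_inverts hcb hm
    rw [hydef, QuotientGroup.mk_pow]
    exact this
  -- the coset of lifts
  let A := {w : G // (w : G ⧸ N) = xb}
  have hA : Nat.card A = Nat.card N := by
    obtain ⟨x₀, rfl⟩ := QuotientGroup.mk_surjective xb
    refine Nat.card_congr ⟨fun w => ⟨x₀⁻¹ * w.1, ?_⟩, fun n => ⟨x₀ * n.1, ?_⟩, ?_, ?_⟩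
    · exact QuotientGroup.eq.mp w.2.symm
    · exact (QuotientGroup.eq.mpr (by simpa using n.2)).symm
    · intro w; apply Subtype.ext; simp
    · intro n; apply Subtype.ext; simp
  have hyb' : ((y : G) : G ⧸ N) * xb⁻¹ * ((y : G) : G ⧸ N)⁻¹ = xb := by
    have := congrArg (fun z => z⁻¹) hyb
    simpa [mul_assoc] using this
  let f : A → A := fun w => ⟨y * w.1⁻¹ * y⁻¹, by
    have e : ((y * w.1⁻¹ * y⁻¹ : G) : G ⧸ N) = ((y : G) : G ⧸ N) * (w.1 : G ⧸ N)⁻¹ * ((y : G) : G ⧸ N)⁻¹ := by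
      simp only [QuotientGroup.mk_mul, QuotientGroup.mk_inv]
    rw [e, w.2, hyb']⟩
  have hf : ∀ a, f^[2 ^ (k + 1)] a = a := by
    intro a
    have h1 : ∀ n (b : A), (f^[n] b).1 = ((fun w => y * w⁻¹ * y⁻¹)^[n]) b.1 := by
      intro n
      induction n with
      | zero => intro b; rfl
      | succ n ih =>
        intro b
        rw [Function.iterate_succ_apply, Function.iterate_succ_apply, ih]
    apply Subtype.ext
    rw [h1, twist_iter_id y k hy]
  obtain ⟨w, hw⟩ := exists_fixed_of_odd (by rw [hA]; exact hN) f (k + 1) hf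
  have hw1 : y * w.1⁻¹ * y⁻¹ = w.1 := congrArg Subtype.val hw
  have hw2 : y * w.1 * y⁻¹ = w.1⁻¹ := by
    have := congrArg (fun z => z⁻¹) hw1
    simpa [mul_assoc] using this
  -- `w` has odd order
  have hwodd : Odd (orderOf w.1) := by
    have h1 : w.1 ^ orderOf xb ∈ N := by
      rw [← QuotientGroup.eq_one_iff, QuotientGroup.mk_pow, w.2, pow_orderOf_eq_one]
    have h2 : orderOf (w.1 ^ orderOf xb) ∣ Nat.card N := by
      have := orderOf_dvd_natCard (⟨_, h1⟩ : N)
      rwa [Subgroup.orderOf_mk] at this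
    have h3 : orderOf w.1 ∣ orderOf xb * Nat.card N := by
      apply orderOf_dvd_of_pow_eq_one
      rw [pow_mul]
      exact orderOf_dvd_iff_pow_eq_one.mp h2
    exact (hx.mul hN).of_dvd_nat h3
  have hw3 : w.1 = 1 := h _ hwodd (isConj_inv_of hw2)
  have := w.2
  rw [hw3] at this
  exact this.symm

/-- Conjugacy of odd-order lifts modulo a normal `2`-subgroup. -/
theorem conj_of_same_image (N : Subgroup G) [N.Normal] (hN : IsPGroup 2 N) {x w : G}
    (hx : Odd (orderOf x)) (hw : Odd (orderOf w)) (h : (x : G ⧸ N) = (w : G ⧸ N)) :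
    ∃ n ∈ N, n * x * n⁻¹ = w := by
  classical
  haveI : Fact (Nat.Prime 2) := ⟨Nat.prime_two⟩
  set xb : G ⧸ N := (x : G ⧸ N) with hxb
  -- injectivity on powers of an odd-order element
  have key : ∀ z : G, Odd (orderOf z) → ∀ i : ℤ, z ^ i ∈ N → z ^ i = 1 := by
    intro z hz i hi
    obtain ⟨j, hj⟩ := IsPGroup.iff_orderOf.mp hN ⟨z ^ i, hi⟩
    have h1 : orderOf (z ^ i) ∣ orderOf z := orderOf_dvd_of_pow_eq_one (by
      rw [← zpow_natCast, ← zpow_mul, mul_comm, zpow_mul, zpow_natCast, pow_orderOf_eq_one,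
        one_zpow])
    have h2 : orderOf (z ^ i) = 2 ^ j := by
      rw [← hj, Subgroup.orderOf_mk]
    have h3 : Odd (orderOf (z ^ i)) := hz.of_dvd_nat h1
    rw [h2] at h3
    have h4 : j = 0 := by
      by_contra hne
      have : Even (2 ^ j) := (Nat.even_pow.mpr ⟨even_two, hne⟩)
      exact (Nat.not_even_iff_odd.mpr h3) this
    rw [h4, pow_zero] at h2
    exact orderOf_eq_one_iff.mp h2
  let Z : Subgroup (G ⧸ N) := Subgroup.zpowers xb
  let M : Subgroup G := Z.comap (QuotientGroup.mk' N)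
  have hNM : N ≤ M := by
    intro n hn
    show (n : G ⧸ N) ∈ Z
    rw [(QuotientGroup.eq_one_iff n).mpr hn]
    exact one_mem _
  have hxM : x ∈ M := Subgroup.mem_zpowers xb
  have hwM : w ∈ M := by
    show (w : G ⧸ N) ∈ Z
    rw [← h]
    exact Subgroup.mem_zpowers xb
  let N' : Subgroup M := N.subgroupOf M
  haveI : N'.Normal := inferInstance
  have hcardN' : IsPGroup 2 N' := by
    have : Function.Injective (fun a : N' => (⟨a.1.1, a.2⟩ : N)) := by
      intro a b hab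
      apply Subtype.ext
      apply Subtype.ext
      have := congrArg (fun z : N => (z : G)) hab
      exact this
    let φ : N' →* N :=
      { toFun := fun a => ⟨a.1.1, a.2⟩
        map_one' := rfl
        map_mul' := fun _ _ => rfl }
    exact IsPGroup.of_injective hN φ this
  haveI : Group.IsSolvable N' := by
    haveI : Group.IsNilpotent N' := hcardN'.isNilpotent
    infer_instance
  have hord : orderOf x = orderOf xb := by
    have h1 : orderOf xb ∣ orderOf x := by
      apply orderOf_dvd_of_pow_eq_one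
      rw [hxb, ← QuotientGroup.mk_pow, pow_orderOf_eq_one]
      rfl
    have h2 : orderOf x ∣ orderOf xb := by
      apply orderOf_dvd_of_pow_eq_one
      have h3 : x ^ (orderOf xb : ℤ) ∈ N := by
        rw [zpow_natCast, ← QuotientGroup.eq_one_iff, QuotientGroup.mk_pow, ← hxb,
          pow_orderOf_eq_one]
      have h4 := key x hx _ h3
      rwa [zpow_natCast] at h4
    exact Nat.dvd_antisymm h2 h1
  have hordw : orderOf w = orderOf xb := by
    have h1 : orderOf xb ∣ orderOf w := by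
      apply orderOf_dvd_of_pow_eq_one
      rw [h, ← QuotientGroup.mk_pow, pow_orderOf_eq_one]
      rfl
    have h2 : orderOf w ∣ orderOf xb := by
      apply orderOf_dvd_of_pow_eq_one
      have h3 : w ^ (orderOf xb : ℤ) ∈ N := by
        rw [zpow_natCast, ← QuotientGroup.eq_one_iff, QuotientGroup.mk_pow, ← h,
          pow_orderOf_eq_one]
      have h4 := key w hw _ h3
      rwa [zpow_natCast] at h4
    exact Nat.dvd_antisymm h2 h1
  have hidx : N'.index = orderOf xb := by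
    have h1 : N'.index = N.relIndex M := rfl
    have h2 : (⊥ : Subgroup (G ⧸ N)).comap (QuotientGroup.mk' N) = N := by
      ext n
      simp [Subgroup.mem_comap, QuotientGroup.eq_one_iff]
    have h3 : M.map (QuotientGroup.mk' N) = Z := by
      exact Subgroup.map_comap_eq_self_of_surjective (QuotientGroup.mk'_surjective N) Z
    have h4 := Subgroup.relIndex_comap (H := (⊥ : Subgroup (G ⧸ N))) (QuotientGroup.mk' N) M
    rw [h2, h3, Subgroup.relIndex_bot_left, Nat.card_zpowers] at h4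
    rw [h1, h4]
  let x' : M := ⟨x, hxM⟩
  let w' : M := ⟨w, hwM⟩
  have hcop : (Nat.card N').Coprime N'.index := by
    obtain ⟨k, hk⟩ := IsPGroup.iff_card.mp hcardN'
    rw [hk, hidx]
    refine Nat.Coprime.pow_left _ ?_
    rw [Nat.coprime_two_left]
    rw [← hord]
    exact hx
  obtain ⟨g, hg⟩ := Cfsg.Agent.Lib.Coprime.SZ.conj_of_solvable_normal N' hcop
    (Subgroup.zpowers x') (Subgroup.zpowers w')
    (by rw [Nat.card_zpowers, hidx, Subgroup.orderOf_mk]; exact hord)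
    (by rw [Nat.card_zpowers, hidx, Subgroup.orderOf_mk]; exact hordw)
  -- decompose `g`
  have hgm : ((g : G) : G ⧸ N) ∈ Z := g.2
  obtain ⟨j, hj⟩ := Subgroup.mem_zpowers_iff.mp hgm
  have hn : (g : G) * x ^ (-j) ∈ N := by
    rw [← QuotientGroup.eq_one_iff, QuotientGroup.mk_mul, ← hj, QuotientGroup.mk_zpow]
    simp [← hxb]
  refine ⟨(g : G) * x ^ (-j), hn, ?_⟩
  have h5 : (g : G) * x * (g : G)⁻¹ ∈ Subgroup.zpowers w := by
    have h6 : MulAut.conj g • x' ∈ Subgroup.zpowers w' := by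
      rw [← hg]
      exact Subgroup.smul_mem_pointwise_smul _ _ _ (Subgroup.mem_zpowers x')
    obtain ⟨i, hi⟩ := Subgroup.mem_zpowers_iff.mp h6
    refine Subgroup.mem_zpowers_iff.mpr ⟨i, ?_⟩
    have := congrArg Subtype.val hi
    simpa [MulAut.smul_def, w', x'] using this
  have e1 : (g : G) * x ^ (-j) * x * ((g : G) * x ^ (-j))⁻¹ = (g : G) * x * (g : G)⁻¹ := by
    have : Commute (x ^ (-j)) x := (Commute.refl x).zpow_left _
    calc (g : G) * x ^ (-j) * x * ((g : G) * x ^ (-j))⁻¹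
        = (g : G) * (x ^ (-j) * x) * (x ^ (-j))⁻¹ * (g : G)⁻¹ := by group
      _ = (g : G) * (x * x ^ (-j)) * (x ^ (-j))⁻¹ * (g : G)⁻¹ := by rw [this.eq]
      _ = (g : G) * x * (g : G)⁻¹ := by group
  rw [e1]
  obtain ⟨i, hi⟩ := Subgroup.mem_zpowers_iff.mp h5
  rw [← hi]
  have h7 : (((g : G) * x * (g : G)⁻¹ : G) : G ⧸ N) = (w : G ⧸ N) := by
    simp only [QuotientGroup.mk_mul, QuotientGroup.mk_inv, ← h, ← hxb]
    rw [← hj]
    have : Commute (xb ^ j) xb := (Commute.refl xb).zpow_left _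
    rw [this.eq]
    group
  have h8 : w ^ (i - 1) ∈ N := by
    rw [← QuotientGroup.eq_one_iff, zpow_sub, zpow_one, QuotientGroup.mk_mul, QuotientGroup.mk_zpow,
      QuotientGroup.mk_inv, mul_inv_eq_one, ← QuotientGroup.mk_zpow, hi, h7]
  have h9 := key w hw _ h8
  rw [zpow_sub, zpow_one, mul_inv_eq_one] at h9
  exact h9

/-- Normal `2`-subgroups: `NR` passes to the quotient. -/
theorem NR.quotient_two (h : NR G) (N : Subgroup G) [N.Normal] (hN : IsPGroup 2 N) :
    NR (G ⧸ N) := by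
  intro xb hx hr
  obtain ⟨cb, hcb⟩ := isConj_iff.mp hr
  obtain ⟨x₀, rfl⟩ := QuotientGroup.mk_surjective xb
  obtain ⟨c, rfl⟩ := QuotientGroup.mk_surjective cb
  obtain ⟨s, hs⟩ := exists_two_pow_odd x₀
  set x₁ := x₀ ^ 2 ^ s with hx₁
  have hc1 : ((c : G) : G ⧸ N) * (x₁ : G ⧸ N) * ((c : G) : G ⧸ N)⁻¹ = (x₁ : G ⧸ N)⁻¹ := by
    rw [hx₁, QuotientGroup.mk_pow]
    exact pow_inverted hcb _
  have hodd : Odd (orderOf (c * x₁⁻¹ * c⁻¹)) := by
    have : c * x₁⁻¹ * c⁻¹ = (MulAut.conj c) (x₁⁻¹) := by simp [MulAut.conj_apply]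
    rw [this, MulEquiv.orderOf_eq, orderOf_inv]
    exact hs
  have himg : (x₁ : G ⧸ N) = ((c * x₁⁻¹ * c⁻¹ : G) : G ⧸ N) := by
    simp only [QuotientGroup.mk_mul, QuotientGroup.mk_inv]
    have := congrArg (fun z => z⁻¹) hc1
    simpa [mul_assoc] using this.symm
  obtain ⟨n, -, hn⟩ := conj_of_same_image N hN hs hodd himg
  have hconj : (c⁻¹ * n) * x₁ * (c⁻¹ * n)⁻¹ = x₁⁻¹ := by
    calc (c⁻¹ * n) * x₁ * (c⁻¹ * n)⁻¹ = c⁻¹ * (n * x₁ * n⁻¹) * c := by group
      _ = x₁⁻¹ := by rw [hn]; group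
  have h1 : x₁ = 1 := h _ hs (isConj_inv_of hconj)
  have h2 : ((x₀ : G) : G ⧸ N) ^ 2 ^ s = 1 := by
    rw [← QuotientGroup.mk_pow, ← hx₁, h1]
    rfl
  exact eq_one_of_two_pow hx s h2

end Cfsg.Agent.Lib.RealCl
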