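import Mathlib
import Cfsg.Agent.Lib.RealCl.Quot
import Cfsg.Agent.Lib.Transfer.Basic
import Cfsg.Agent.Lib.Solvable.PSeries
import Cfsg.Agent.S0199

set_option autoImplicit false

namespace Cfsg.Agent.Lib.RealCl

universe u

open Cfsg.Agent.Lib.Transfer.Basic

section twoGen

variable {G : Type u} [Group G] [Finite G]

/-- In an `NR` group, two involutions generate a `2`-group. -/
theorem NR.two_gen (h : NR G) {t u : G} (ht : t ^ 2 = 1) (hu : u ^ 2 = 1) :
    IsPGroup 2 ↥(Subgroup.closure ({t, u} : Set G)) := by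
  haveI : Fact (Nat.Prime 2) := ⟨Nat.prime_two⟩
  have htinv : t⁻¹ = t := by
    rw [inv_eq_iff_mul_eq_one, ← pow_two, ht]
  have huinv : u⁻¹ = u := by
    rw [inv_eq_iff_mul_eq_one, ← pow_two, hu]
  set z := t * u with hz
  have hinv : t * z * t⁻¹ = z⁻¹ := by
    rw [hz, htinv, mul_inv_rev, htinv, huinv]
    calc t * (t * u) * t = t ^ 2 * (u * t) := by rw [pow_two]; group
      _ = u * t := by rw [ht, one_mul]
  -- `z` is a `2`-element
  obtain ⟨s, hs⟩ := exists_two_pow_odd z
  have hzs : z ^ 2 ^ s = 1 := h _ hs (isConj_inv_of (pow_inverted hinv _))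
  have hzpow : ∀ k : ℤ, t * z ^ k * t⁻¹ = (z ^ k)⁻¹ := by
    intro k
    have := map_zpow (MulAut.conj t) z k
    simp only [MulAut.conj_apply] at this
    rw [this, hinv, inv_zpow]
  have hform : ∀ y ∈ Subgroup.closure ({t, u} : Set G), ∃ k : ℤ, y = z ^ k ∨ y = z ^ k * t := by
    have hzt : ∀ k : ℤ, t * z ^ k = z ^ (-k) * t := by
      intro k
      have h1 := hzpow k
      rw [zpow_neg, ← h1, htinv]
      calc t * z ^ k = t * z ^ k * t * t := by
            rw [mul_assoc (t * z ^ k), ← pow_two, ht, mul_one]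
        _ = _ := by rfl
    intro y hy
    induction hy using Subgroup.closure_induction with
    | mem y hy =>
      rcases hy with rfl | hy
      · exact ⟨0, Or.inr (by simp)⟩
      · have hy' : y = u := hy
        subst hy'
        refine ⟨-1, Or.inr ?_⟩
        rw [zpow_neg, zpow_one, hz, mul_inv_rev, huinv, htinv, mul_assoc, ← pow_two, ht, mul_one]
    | one => exact ⟨0, Or.inl (by simp)⟩
    | mul a b _ _ ha hb =>
      obtain ⟨i, hi⟩ := ha
      obtain ⟨j, hj⟩ := hb
      rcases hi with rfl | rfl <;> rcases hj with rfl | rfl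
      · exact ⟨i + j, Or.inl (by rw [zpow_add])⟩
      · exact ⟨i + j, Or.inr (by rw [zpow_add, mul_assoc])⟩
      · exact ⟨i - j, Or.inr (by
          rw [mul_assoc, hzt, sub_eq_add_neg, zpow_add, mul_assoc])⟩
      · exact ⟨i - j, Or.inl (by
          rw [show z ^ i * t * (z ^ j * t) = z ^ i * (t * z ^ j) * t by group, hzt,
            sub_eq_add_neg, zpow_add, mul_assoc, mul_assoc, ← pow_two, ht, mul_one])⟩
    | inv a _ ha =>
      obtain ⟨i, hi⟩ := ha
      rcases hi with rfl | rfl
      · exact ⟨-i, Or.inl (by rw [zpow_neg])⟩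
      · exact ⟨i, Or.inr (by rw [mul_inv_rev, htinv, ← zpow_neg, hzt, neg_neg])⟩
  refine IsPGroup.iff_orderOf.mpr ?_
  intro g
  obtain ⟨k, hk⟩ := hform g.1 g.2
  have hpow : ∃ n : ℕ, (g.1) ^ 2 ^ n = 1 := by
    rcases hk with hk | hk
    · refine ⟨s, ?_⟩
      rw [hk, ← zpow_natCast, ← zpow_mul, mul_comm, zpow_mul, zpow_natCast, hzs, one_zpow]
    · refine ⟨1, ?_⟩
      rw [hk, pow_one, pow_two]
      calc z ^ k * t * (z ^ k * t) = z ^ k * (t * z ^ k * t⁻¹) * t ^ 2 := by
            rw [pow_two]; group
        _ = 1 := by rw [hzpow, ht]; group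
  obtain ⟨n, hn⟩ := hpow
  have h1 : orderOf g ∣ 2 ^ n := by
    rw [← Subgroup.orderOf_coe]
    exact orderOf_dvd_of_pow_eq_one hn
  obtain ⟨j, -, hj⟩ := (Nat.dvd_prime_pow Nat.prime_two).mp h1
  exact ⟨j, hj⟩

/-- A normal `2`-subgroup containing any given involution. -/
theorem NR.exists_normal_two (h : NR G) {t : G} (ht : t ^ 2 = 1) :
    ∃ N : Subgroup G, N.Normal ∧ IsPGroup 2 N ∧ t ∈ N := by
  haveI : Fact (Nat.Prime 2) := ⟨Nat.prime_two⟩
  have hX : IsPGroup 2 ↥(Subgroup.zpowers t) := by
    refine IsPGroup.iff_orderOf.mpr ?_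
    intro g
    have h1 : orderOf g ∣ 2 ^ 1 := by
      rw [← Subgroup.orderOf_coe]
      apply orderOf_dvd_of_pow_eq_one
      obtain ⟨i, hi⟩ := Subgroup.mem_zpowers_iff.mp g.2
      rw [← hi, ← zpow_natCast, ← zpow_mul, mul_comm, zpow_mul, zpow_natCast, pow_one, ht, one_zpow]
    obtain ⟨j, -, hj⟩ := (Nat.dvd_prime_pow Nat.prime_two).mp h1
    exact ⟨j, hj⟩
  obtain ⟨N, hN, hN2, hle⟩ := Cfsg.Agent.S0199.result (Subgroup.zpowers t) hX (by
    intro g
    have hu : (g * t * g⁻¹) ^ 2 = 1 := by
      rw [pow_two]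
      calc g * t * g⁻¹ * (g * t * g⁻¹) = g * t ^ 2 * g⁻¹ := by rw [pow_two]; group
        _ = 1 := by rw [ht]; group
    have := h.two_gen ht hu
    refine this.to_le ?_
    rw [sup_le_iff]
    constructor
    · rw [Subgroup.zpowers_le]
      exact Subgroup.subset_closure (by simp)
    · rw [Subgroup.map_le_iff_le_comap, Subgroup.zpowers_le, Subgroup.mem_comap]
      exact Subgroup.subset_closure (by simp [MulAut.conj_apply]))
  exact ⟨N, hN, hN2, hle (Subgroup.mem_zpowers t)⟩

end twoGen

/-- **NR groups are solvable** given the Odd Order Theorem. -/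
theorem NR.solvable
    (ft : ∀ (H : Type u) [Group H] [Finite H], Odd (Nat.card H) → Group.IsSolvable H) :
    ∀ (n : ℕ) (G : Type u) [Group G] [Finite G], Nat.card G = n → NR G → Group.IsSolvable G := by
  intro n
  induction n using Nat.strong_induction_on with
  | _ n ih =>
    intro G _ _ hn hG
    haveI : Fact (Nat.Prime 2) := ⟨Nat.prime_two⟩
    by_cases hodd : Odd (Nat.card G)
    · exact ft G hodd
    · have heven : 2 ∣ Nat.card G := (Nat.not_odd_iff_even.mp hodd).two_dvd
      obtain ⟨t, ht⟩ := exists_prime_orderOf_dvd_card' (G := G) 2 heven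
      have ht2 : t ^ 2 = 1 := by rw [← ht, pow_orderOf_eq_one]
      have htne : t ≠ 1 := by
        rintro rfl
        rw [orderOf_one] at ht
        omega
      obtain ⟨N, hN, hN2, htN⟩ := hG.exists_normal_two ht2
      have hNbot : N ≠ ⊥ := by
        rintro rfl
        exact htne ((Subgroup.mem_bot).mp htN)
      have hlt : Nat.card (G ⧸ N) < n := by
        have h1 := Subgroup.card_eq_card_quotient_mul_card_subgroup N
        have h2 : 1 < Nat.card N := by
          haveI : Nontrivial N := (Subgroup.nontrivial_iff_ne_bot N).mpr hNbot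
          exact Finite.one_lt_card
        have h3 : 0 < Nat.card (G ⧸ N) := Nat.card_pos
        rw [← hn, h1]
        nlinarith
      haveI hq : Group.IsSolvable (G ⧸ N) :=
        ih _ hlt (G ⧸ N) rfl (hG.quotient_two N hN2)
      haveI hs : Group.IsSolvable N := by
        haveI : Group.IsNilpotent N := hN2.isNilpotent
        infer_instance
      exact Group.isSolvable_of_ker_le_range N.subtype (QuotientGroup.mk' N) (by
        rw [QuotientGroup.ker_mk', Subgroup.range_subtype])

/-- The subgroup-generation hypothesis. -/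
def GenByTwo (G : Type u) [Group G] : Prop :=
  Subgroup.closure {g : G | ∃ k : ℕ, orderOf g = 2 ^ k} = ⊤

section T

variable {A : Type u} [Group A] [Finite A]

/-- (T): a `NR` group generated by `2`-elements, with a normal `2`-complement, is a `2`-group. -/
theorem isPGroup_of_complement (hA : NR A) (hgen : GenByTwo A)
    (hc : Cfsg.HasNormalPComplement 2 A) : IsPGroup 2 A := by
  classical
  haveI : Fact (Nat.Prime 2) := ⟨Nat.prime_two⟩
  obtain ⟨C, hCn, hC1, hC2⟩ := hasNormalPComplement_iff.mp hc
  have hCodd : Odd (Nat.card C) := Nat.coprime_two_right.mp hC1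
  -- every element of `C` has odd order
  have hoddC : ∀ c ∈ C, Odd (orderOf c) := by
    intro c hc
    have := orderOf_dvd_natCard (⟨c, hc⟩ : C)
    rw [Subgroup.orderOf_mk] at this
    exact hCodd.of_dvd_nat this
  -- `2`-elements centralize `C`
  have hstep : ∀ (i : ℕ) (w c : A), c ∈ C → w ^ 2 ^ i * c = c * w ^ 2 ^ i → w * c = c * w := by
    intro i
    induction i with
    | zero =>
      intro w c _ h
      simpa using h
    | succ i ih =>
      intro w c hc h
      apply ih w c hc
      set w₀ := w ^ 2 ^ i with hw₀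
      have hsq : w₀ ^ 2 * c = c * w₀ ^ 2 := by
        rw [hw₀, ← pow_mul, ← pow_succ]
        exact h
      set x := c⁻¹ * (w₀ * c * w₀⁻¹) with hx
      have hxC : x ∈ C := mul_mem (inv_mem hc) (hCn.conj_mem c hc w₀)
      have hinv : w₀ * x * w₀⁻¹ = x⁻¹ := by
        have e : w₀ ^ 2 * c * (w₀ ^ 2)⁻¹ = c := by
          rw [hsq]; group
        have e2 : w₀ * (w₀ * c * w₀⁻¹) * w₀⁻¹ = c := by
          calc w₀ * (w₀ * c * w₀⁻¹) * w₀⁻¹ = w₀ ^ 2 * c * (w₀ ^ 2)⁻¹ := by
                rw [pow_two]; group
            _ = c := e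
        rw [hx, mul_inv_rev, inv_inv]
        calc w₀ * (c⁻¹ * (w₀ * c * w₀⁻¹)) * w₀⁻¹
            = (w₀ * c⁻¹ * w₀⁻¹) * (w₀ * (w₀ * c * w₀⁻¹) * w₀⁻¹) := by group
          _ = (w₀ * c⁻¹ * w₀⁻¹) * c := by rw [e2]
          _ = (w₀ * c * w₀⁻¹)⁻¹ * c := by group
      have hx1 : x = 1 := hA x (hoddC x hxC) (isConj_inv_of hinv)
      have : c⁻¹ * (w₀ * c * w₀⁻¹) = 1 := hx1
      have h2 : w₀ * c * w₀⁻¹ = c := by
        rwa [inv_mul_eq_one, eq_comm] at this
      calc w₀ * c = w₀ * c * w₀⁻¹ * w₀ := by group
        _ = c * w₀ := by rw [h2]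
  have hcentral : ∀ w : A, (∃ k : ℕ, orderOf w = 2 ^ k) → ∀ c ∈ C, w * c = c * w := by
    rintro w ⟨k, hk⟩ c hc
    apply hstep k w c hc
    rw [← hk, pow_orderOf_eq_one]
    simp
  have hcentralC : ∀ a : A, ∀ c ∈ C, a * c = c * a := by
    intro a c hc
    have ha : a ∈ Subgroup.closure {g : A | ∃ k : ℕ, orderOf g = 2 ^ k} := by
      rw [hgen]; trivial
    induction ha using Subgroup.closure_induction with
    | mem y hy => exact hcentral y hy c hc
    | one => simp
    | mul a b _ _ ha hb =>
      rw [mul_assoc, hb, ← mul_assoc, ha, mul_assoc]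
    | inv a _ ha =>
      calc a⁻¹ * c = a⁻¹ * (c * a) * a⁻¹ := by group
        _ = a⁻¹ * (a * c) * a⁻¹ := by rw [ha]
        _ = c * a⁻¹ := by group
  -- Take a Sylow `P`; all `2`-elements lie in it
  let P : Sylow 2 A := default
  have hcompl : C.IsComplement' (P : Subgroup A) := isComplement'_of_coprime_of_isPGroup P hC1 hC2
  have hPtop : (P : Subgroup A) = ⊤ := by
    rw [eq_top_iff, ← hgen, Subgroup.closure_le]
    rintro w ⟨k, hk⟩
    obtain ⟨⟨c, p⟩, hcp, -⟩ := hcompl.existsUnique w
    have hcp' : (c : A) * (p : A) = w := hcp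
    obtain ⟨l, hl⟩ := IsPGroup.iff_orderOf.mp P.isPGroup' p
    have hl' : orderOf (p : A) = 2 ^ l := by rw [Subgroup.orderOf_coe, hl]
    have hcomm : Commute (c : A) (p : A) := (hcentralC (p : A) c c.2).symm
    have h1 : (c : A) ^ 2 ^ (k + l) = 1 := by
      have h2 := hcomm.mul_pow (2 ^ (k + l))
      rw [hcp'] at h2
      have h3 : w ^ 2 ^ (k + l) = 1 := by
        rw [pow_add, pow_mul, ← hk, pow_orderOf_eq_one, one_pow]
      have h4 : (p : A) ^ 2 ^ (k + l) = 1 := by
        rw [pow_add, mul_comm, pow_mul, ← hl', pow_orderOf_eq_one, one_pow]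
      rw [h3, h4, mul_one] at h2
      exact h2.symm
    have h5 : (c : A) = 1 := eq_one_of_two_pow (hoddC c c.2) _ h1
    rw [← hcp', h5, one_mul]
    exact p.2
  have h6 : IsPGroup 2 (P : Subgroup A) := P.isPGroup'
  rw [hPtop] at h6
  exact h6.of_surjective (Subgroup.topEquiv (G := A)).toMonoidHom
    (Subgroup.topEquiv (G := A)).surjective

end T

/-- Images of `2`-elements are `2`-elements: generation passes to quotients. -/
theorem GenByTwo.quotient {L : Type u} [Group L] [Finite L] (h : GenByTwo L) (N : Subgroup L)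
    [N.Normal] : GenByTwo (L ⧸ N) := by
  unfold GenByTwo at h ⊢
  rw [eq_top_iff]
  have hsurj := QuotientGroup.mk'_surjective N
  have h1 : (⊤ : Subgroup (L ⧸ N)) = (⊤ : Subgroup L).map (QuotientGroup.mk' N) :=
    (Subgroup.map_top_of_surjective _ hsurj).symm
  rw [h1, ← h, MonoidHom.map_closure, Subgroup.closure_le]
  rintro _ ⟨g, ⟨k, hk⟩, rfl⟩
  apply Subgroup.subset_closure
  have h2 : orderOf ((QuotientGroup.mk' N) g) ∣ 2 ^ k := by
    rw [← hk]
    exact orderOf_map_dvd _ _
  obtain ⟨j, -, hj⟩ := (Nat.dvd_prime_pow Nat.prime_two).mp h2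
  exact ⟨j, hj⟩

/-- (L4) NR groups generated by `2`-elements have a normal `2`-complement. -/
theorem NR.complement
    (ft : ∀ (H : Type u) [Group H] [Finite H], Odd (Nat.card H) → Group.IsSolvable H) :
    ∀ (n : ℕ) (L : Type u) [Group L] [Finite L], Nat.card L = n → NR L → GenByTwo L →
      Cfsg.HasNormalPComplement 2 L := by
  intro n
  induction n using Nat.strong_induction_on with
  | _ n ih =>
    intro L _ _ hn hL hgen
    haveI : Fact (Nat.Prime 2) := ⟨Nat.prime_two⟩
    by_cases htriv : Nat.card L = 1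
    · -- trivial group
      refine hasNormalPComplement_iff.mpr ⟨⊥, inferInstance, ?_, ?_⟩
      · rw [Subgroup.card_bot]
        exact Nat.coprime_one_left _
      · refine IsPGroup.of_card (n := 0) ?_
        rw [← Subgroup.index_eq_card, Subgroup.index_bot, htriv, pow_zero]
    · haveI : Nontrivial L := by
        rcases finite_or_infinite L with _ | _
        · exact (Finite.one_lt_card_iff_nontrivial).mp
            (lt_of_le_of_ne Nat.card_pos (Ne.symm htriv))
        · infer_instance
      haveI hsol : Group.IsSolvable L := NR.solvable ft _ L rfl hL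
      obtain ⟨q, N, hq, hNn, hNbot, hNq⟩ :=
        Cfsg.Agent.Lib.Solvable.PSeries.exists_normal_prime_power_of_solvable (H := L)
      have hlt : Nat.card (L ⧸ N) < n := by
        have h1 := Subgroup.card_eq_card_quotient_mul_card_subgroup N
        have h2 : 1 < Nat.card N := by
          haveI : Nontrivial N := (Subgroup.nontrivial_iff_ne_bot N).mpr hNbot
          exact Finite.one_lt_card
        have h3 : 0 < Nat.card (L ⧸ N) := Nat.card_pos
        rw [← hn, h1]
        nlinarith
      by_cases hq2 : q = 2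
      · subst hq2
        have hQ : NR (L ⧸ N) := hL.quotient_two N hNq
        have hQg : GenByTwo (L ⧸ N) := hgen.quotient N
        have hc := ih _ hlt (L ⧸ N) rfl hQ hQg
        have h2grp : IsPGroup 2 (L ⧸ N) := isPGroup_of_complement hQ hQg hc
        have hL2 : IsPGroup 2 L := by
          obtain ⟨a, ha⟩ := IsPGroup.iff_card.mp hNq
          obtain ⟨b, hb⟩ := IsPGroup.iff_card.mp h2grp
          refine IsPGroup.of_card (n := b + a) ?_
          rw [Subgroup.card_eq_card_quotient_mul_card_subgroup N, ha, hb, pow_add]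
        refine hasNormalPComplement_iff.mpr ⟨⊥, inferInstance, ?_, ?_⟩
        · rw [Subgroup.card_bot]
          exact Nat.coprime_one_left _
        · exact hL2.of_surjective (QuotientGroup.mk' _) (QuotientGroup.mk'_surjective _)
      · have hNodd : Odd (Nat.card N) := by
          haveI : Fact q.Prime := ⟨hq⟩
          obtain ⟨k, hk⟩ := IsPGroup.iff_card.mp hNq
          rw [hk]
          exact (hq.odd_of_ne_two hq2).pow
        have hQ : NR (L ⧸ N) := hL.quotient_odd N hNodd
        have hQg : GenByTwo (L ⧸ N) := hgen.quotient N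
        have hc := ih _ hlt (L ⧸ N) rfl hQ hQg
        obtain ⟨C, hCn, hC1, hC2⟩ := hasNormalPComplement_iff.mp hc
        -- the preimage
        let D : Subgroup L := C.comap (QuotientGroup.mk' N)
        haveI : D.Normal := inferInstance
        refine hasNormalPComplement_iff.mpr ⟨D, inferInstance, ?_, ?_⟩
        · -- `|D| = |N| * |C|`
          have hD : Nat.card D = Nat.card N * Nat.card C := by
            have h1 : D.index = C.index :=
              Subgroup.index_comap_of_surjective C (QuotientGroup.mk'_surjective N)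
            have h2 := Subgroup.card_mul_index D
            have h3 := Subgroup.card_mul_index C
            have h4 := Subgroup.card_eq_card_quotient_mul_card_subgroup N
            have h5 : 0 < C.index := Nat.pos_of_ne_zero Subgroup.index_ne_zero_of_finite
            rw [h1] at h2
            apply Nat.eq_of_mul_eq_mul_right h5
            rw [h2, h4, ← h3]
            ring
          rw [hD, Nat.coprime_mul_iff_left]
          exact ⟨Nat.coprime_two_right.mpr hNodd, hC1⟩
        · -- `L / D` is a quotient of `(L / N) / C`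
          let φ : (L ⧸ N) ⧸ C →* L ⧸ D :=
            QuotientGroup.lift C (QuotientGroup.lift N (QuotientGroup.mk' D) (by
              intro x hx
              rw [QuotientGroup.ker_mk']
              show (x : L ⧸ N) ∈ C
              rw [(QuotientGroup.eq_one_iff x).mpr hx]
              exact one_mem _)) (by
              intro x hx
              induction x using QuotientGroup.induction_on with
              | H x =>
                rw [MonoidHom.mem_ker]
                show ((x : L) : L ⧸ D) = 1
                rw [QuotientGroup.eq_one_iff]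
                exact hx)
          refine hC2.of_surjective φ ?_
          intro y
          induction y using QuotientGroup.induction_on with
          | H y => exact ⟨((y : L ⧸ N) : (L ⧸ N) ⧸ C), rfl⟩

end Cfsg.Agent.Lib.RealCl
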