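import Mathlib
import Cfsg.Agent.Lib.RealCl.Compl
import Cfsg.Agent.Lib.Transfer.Frobenius

set_option autoImplicit false

namespace Cfsg.Agent.Lib.RealCl

universe u

open Cfsg.Agent.Lib.Transfer.Basic Cfsg.Agent.Lib.Transfer.Frobenius

variable {G : Type u} [Group G] [Finite G]

/-- The real-central hypothesis on one Sylow, stated on any `2`-subgroup. -/
theorem real_central (S : Sylow 2 G)
    (hS : ∀ s : ↥(S : Subgroup G), IsConj s s⁻¹ → s ∈ Subgroup.center ↥(S : Subgroup G))
    {Q : Subgroup G} (hQ : IsPGroup 2 Q) {s x : G} (hs : s ∈ Q) (hx : x ∈ Q)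
    (h : x * s * x⁻¹ = s⁻¹) : ∀ q ∈ Q, q * s = s * q := by
  haveI : Fact (Nat.Prime 2) := ⟨Nat.prime_two⟩
  obtain ⟨y, hy⟩ := exists_conj_mem_of_isPGroup S hQ
  let s₁ : ↥(S : Subgroup G) := ⟨y * s * y⁻¹, hy s hs⟩
  let x₁ : ↥(S : Subgroup G) := ⟨y * x * y⁻¹, hy x hx⟩
  have h1 : IsConj s₁ s₁⁻¹ := by
    refine isConj_iff.mpr ⟨x₁, ?_⟩
    apply Subtype.ext
    show (y * x * y⁻¹) * (y * s * y⁻¹) * (y * x * y⁻¹)⁻¹ = (y * s * y⁻¹)⁻¹
    calc (y * x * y⁻¹) * (y * s * y⁻¹) * (y * x * y⁻¹)⁻¹ = y * (x * s * x⁻¹) * y⁻¹ := by group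
      _ = (y * s * y⁻¹)⁻¹ := by rw [h]; group
  have h2 := hS s₁ h1
  intro q hq
  have h3 := (Subgroup.mem_center_iff.mp h2) ⟨y * q * y⁻¹, hy q hq⟩
  have h4 : (y * q * y⁻¹) * (y * s * y⁻¹) = (y * s * y⁻¹) * (y * q * y⁻¹) :=
    congrArg Subtype.val h3
  have h5 : y * (q * s) * y⁻¹ = y * (s * q) * y⁻¹ := by
    calc y * (q * s) * y⁻¹ = (y * q * y⁻¹) * (y * s * y⁻¹) := by group
      _ = (y * s * y⁻¹) * (y * q * y⁻¹) := h4
      _ = y * (s * q) * y⁻¹ := by group
  exact mul_left_cancel (mul_right_cancel h5)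

/-- Case B: all involutions central. -/
theorem frobeniusHyp_of_central (S : Sylow 2 G)
    (hS : ∀ s : ↥(S : Subgroup G), IsConj s s⁻¹ → s ∈ Subgroup.center ↥(S : Subgroup G))
    (hc : ∀ t : G, t ^ 2 = 1 → t ∈ Subgroup.center G) : FrobeniusHyp 2 G := by
  haveI : Fact (Nat.Prime 2) := ⟨Nat.prime_two⟩
  intro Q hQ g hg hcop
  have hgodd : Odd (orderOf g) := Nat.coprime_two_right.mp hcop
  -- `g²` commuting gives `g` commuting.
  have hsq : ∀ x : G, g ^ 2 * x = x * g ^ 2 → g * x = x * g := by
    intro x hx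
    obtain ⟨j, hj⟩ := hgodd
    have h1 : (g ^ 2) ^ (j + 1) = g := by
      rw [← pow_mul]
      have : 2 * (j + 1) = orderOf g + 1 := by omega
      rw [this, pow_succ, pow_orderOf_eq_one, one_mul]
    have h2 : Commute (g ^ 2) x := hx
    have h3 := h2.pow_left (j + 1)
    rw [h1] at h3
    exact h3
  have key : ∀ n : ℕ, ∀ x ∈ Q, orderOf x = n → g * x = x * g := by
    intro n
    induction n using Nat.strong_induction_on with
    | _ n ih =>
      intro x hxQ hn
      by_cases hx1 : x = 1
      · simp [hx1]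
      -- `x²` has smaller order
      have hlt : orderOf (x ^ 2) < n := by
        obtain ⟨k, hk⟩ := IsPGroup.iff_orderOf.mp hQ ⟨x, hxQ⟩
        rw [Subgroup.orderOf_mk] at hk
        have hk0 : k ≠ 0 := by
          rintro rfl
          rw [pow_zero, orderOf_eq_one_iff] at hk
          exact hx1 hk
        have h2 : 2 ∣ orderOf x := by
          rw [hk]
          exact dvd_pow_self 2 hk0
        have h3 := orderOf_pow' x (two_ne_zero)
        rw [Nat.gcd_eq_right h2] at h3
        rw [h3, ← hn]
        have : 0 < orderOf x := orderOf_pos x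
        omega
      have hcx2 : g * x ^ 2 = x ^ 2 * g := ih _ hlt (x ^ 2) (Q.pow_mem hxQ 2) rfl
      set x' := g * x * g⁻¹ with hx'
      have hx'Q : x' ∈ Q := (Subgroup.mem_normalizer_iff.mp hg x).mp hxQ
      have hsqeq : x' ^ 2 = x ^ 2 := by
        calc x' ^ 2 = g * x ^ 2 * g⁻¹ := by rw [hx', pow_two, pow_two]; group
          _ = x ^ 2 := by rw [hcx2]; group
      set u := x⁻¹ * x' with hu
      have huQ : u ∈ Q := mul_mem (inv_mem hxQ) hx'Q
      have hinv : x * u * x⁻¹ = u⁻¹ := by
        have e1 : x' * x' = x * x := by rw [← pow_two, ← pow_two, hsqeq]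
        rw [hu, mul_inv_rev, inv_inv]
        calc x * (x⁻¹ * x') * x⁻¹ = x' * x⁻¹ := by group
          _ = x'⁻¹ * (x' * x') * x⁻¹ := by group
          _ = x'⁻¹ * (x * x) * x⁻¹ := by rw [e1]
          _ = x'⁻¹ * x := by group
      have hcomm := real_central S hS hQ huQ hxQ hinv x hxQ
      have hu2 : u ^ 2 = 1 := by
        have h1 : x * u * x⁻¹ = u := by rw [hcomm]; group
        rw [h1] at hinv
        rw [pow_two]
        nth_rw 1 [hinv]
        simp
      have hucen : u ∈ Subgroup.center G := hc u hu2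
      have hucomm : ∀ y : G, y * u = u * y := fun y => Subgroup.mem_center_iff.mp hucen y
      have hgx : g * x * g⁻¹ = x * u := by
        rw [hu, ← hx']; group
      apply hsq
      calc g ^ 2 * x = g * (g * x * g⁻¹) * g⁻¹ * g ^ 2 := by rw [pow_two]; group
        _ = g * (x * u) * g⁻¹ * g ^ 2 := by rw [hgx]
        _ = (g * x * g⁻¹) * (g * u * g⁻¹) * g ^ 2 := by group
        _ = (x * u) * u * g ^ 2 := by
            rw [hgx, hucomm g]; group
        _ = x * u ^ 2 * g ^ 2 := by rw [pow_two u]; group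
        _ = x * g ^ 2 := by rw [hu2, mul_one]
  rw [Subgroup.mem_centralizer_iff]
  intro q hq
  exact (key _ q hq rfl).symm

/-- A normal `2`-complement together with FT gives solvability. -/
theorem solvable_of_complement
    (ft : ∀ (H : Type u) [Group H] [Finite H], Odd (Nat.card H) → Group.IsSolvable H)
    (h : Cfsg.HasNormalPComplement 2 G) : Group.IsSolvable G := by
  haveI : Fact (Nat.Prime 2) := ⟨Nat.prime_two⟩
  obtain ⟨N, hN, h1, h2⟩ := hasNormalPComplement_iff.mp h
  haveI hs : Group.IsSolvable N := ft N (Nat.coprime_two_right.mp h1)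
  haveI hq : Group.IsSolvable (G ⧸ N) := by
    haveI : Group.IsNilpotent (G ⧸ N) := h2.isNilpotent
    infer_instance
  exact Group.isSolvable_of_ker_le_range N.subtype (QuotientGroup.mk' N) (by
    rw [QuotientGroup.ker_mk', Subgroup.range_subtype])

/-- The subgroup generated by the `2`-elements, as a group, is generated by its `2`-elements. -/
theorem genByTwo_closure :
    GenByTwo ↥(Subgroup.closure {g : G | ∃ k : ℕ, orderOf g = 2 ^ k}) := by
  unfold GenByTwo
  set X := {g : G | ∃ k : ℕ, orderOf g = 2 ^ k} with hX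
  rw [eq_top_iff]
  rintro ⟨y, hy⟩ -
  induction hy using Subgroup.closure_induction with
  | mem y hy =>
    apply Subgroup.subset_closure
    obtain ⟨k, hk⟩ := hy
    exact ⟨k, by rw [Subgroup.orderOf_mk]; exact hk⟩
  | one => exact one_mem _
  | mul a b ha hb iha ihb => exact mul_mem iha ihb
  | inv a ha iha => exact inv_mem iha

/-- The main theorem, assuming FT. -/
theorem main
    (ft : ∀ (H : Type u) [Group H] [Finite H], Odd (Nat.card H) → Group.IsSolvable H)
    (a : ℕ)
    (h : ∀ x : G, IsConj x x⁻¹ → x ∉ Subgroup.center G →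
      ((Subgroup.centralizer ({x} : Set G)).index).factorization 2 = a)
    (S : Sylow 2 G)
    (hS : ∀ s : ↥(S : Subgroup G), IsConj s s⁻¹ → s ∈ Subgroup.center ↥(S : Subgroup G)) :
    Group.IsSolvable G ∧
      Cfsg.HasNormalPComplement 2 ↥(Subgroup.closure {g : G | ∃ k : ℕ, orderOf g = 2 ^ k}) := by
  haveI : Fact (Nat.Prime 2) := ⟨Nat.prime_two⟩
  by_cases hc : ∀ t : G, t ^ 2 = 1 → t ∈ Subgroup.center G
  · -- Case B
    have hcompl := hasNormalPComplement_of_hyp (frobeniusHyp_of_central S hS hc)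
    refine ⟨solvable_of_complement ft hcompl, ?_⟩
    exact HasNormalPComplement_of_injective (Subgroup.closure _).subtype
      (Subgroup.subtype_injective _) hcompl
  · -- Case A
    push Not at hc
    obtain ⟨t, ht, htc⟩ := hc
    have htinv : t⁻¹ = t := by
      rw [inv_eq_iff_mul_eq_one, ← pow_two, ht]
    have ha : a = 0 := by
      rw [← h t (by rw [htinv]) htc]
      -- a Sylow containing `t`
      have hX : IsPGroup 2 ↥(Subgroup.zpowers t) := by
        refine IsPGroup.iff_orderOf.mpr ?_
        intro g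
        have h1 : orderOf g ∣ 2 ^ 1 := by
          rw [← Subgroup.orderOf_coe]
          apply orderOf_dvd_of_pow_eq_one
          obtain ⟨i, hi⟩ := Subgroup.mem_zpowers_iff.mp g.2
          rw [← hi, ← zpow_natCast, ← zpow_mul, mul_comm, zpow_mul, zpow_natCast, pow_one, ht,
            one_zpow]
        obtain ⟨j, -, hj⟩ := (Nat.dvd_prime_pow Nat.prime_two).mp h1
        exact ⟨j, hj⟩
      obtain ⟨S', hS'⟩ := hX.exists_le_sylow
      have htS' : t ∈ (S' : Subgroup G) := hS' (Subgroup.mem_zpowers t)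
      have hcentral := real_central S hS S'.isPGroup' htS' htS'
        (by rw [htinv, ← pow_two, ht, one_mul])
      have hle : (S' : Subgroup G) ≤ Subgroup.centralizer ({t} : Set G) := by
        intro q hq
        rw [Subgroup.mem_centralizer_iff]
        intro y hy
        have hy' : y = t := hy
        subst hy'
        exact (hcentral q hq).symm
      have hdvd : (Subgroup.centralizer ({t} : Set G)).index ∣ (S' : Subgroup G).index :=
        Subgroup.index_dvd_of_le hle
      have hnot : ¬ 2 ∣ (S' : Subgroup G).index := S'.not_dvd_index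
      exact Nat.factorization_eq_zero_of_not_dvd (fun hd => hnot (hd.trans hdvd))
    subst ha
    have hNR : NR G := by
      intro x hx hr
      by_cases hxc : x ∈ Subgroup.center G
      · obtain ⟨c, hc⟩ := isConj_iff.mp hr
        have h1 : c * x = x * c := (Subgroup.mem_center_iff.mp hxc) c
        have h2 : x = x⁻¹ := by
          rw [← hc, h1]; group
        have h3 : x ^ 2 ^ 1 = 1 := by
          rw [pow_one, pow_two]
          nth_rw 1 [h2]
          simp
        exact eq_one_of_two_pow hx 1 h3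
      · have h1 := h x hr hxc
        have h0 : (Subgroup.centralizer ({x} : Set G)).index ≠ 0 :=
          Subgroup.index_ne_zero_of_finite
        have h2 : ¬ 2 ∣ (Subgroup.centralizer ({x} : Set G)).index := by
          intro hd
          have := (Nat.Prime.dvd_iff_one_le_factorization Nat.prime_two h0).mp hd
          omega
        have h3 : Odd (Subgroup.centralizer ({x} : Set G)).index := by
          rw [← Nat.not_even_iff_odd]
          exact fun he => h2 he.two_dvd
        have h4 := sq_eq_one_of_real_odd_class hr h3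
        exact eq_one_of_two_pow hx 1 (by simpa using h4)
    refine ⟨NR.solvable ft _ G rfl hNR, ?_⟩
    exact NR.complement ft _ _ rfl (hNR.subgroup _) genByTwo_closure

end Cfsg.Agent.Lib.RealCl
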